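import Groth.Agent.An.H895.FromComp
import Groth.Agent.An.H895.Pt
import Groth.Agent.An.H891.CompSq

/-!
# The comparison theorem from `Comp (X ↘ Spec ℂ)`
-/

set_option autoImplicit false
open CategoryTheory CategoryTheory.Limits AlgebraicGeometry

attribute [-instance] AlgebraicGeometry.specOverSpec
attribute [local instance] HasDerivedCategory.standard

noncomputable section

namespace Groth.Agent.An.H895.FinalComp

open Groth.Agent.An.H891.CompSq Groth.Agent.An.H891.ClSq Groth.Agent.An.H891 DerivedCategory Groth.Agent.Sga4B.ExtCmp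

section abstract

universe t t' v₁ v₂ v₃ v₄ u₁ u₂ u₃ u₄

variable {A : Type u₁} [Category.{v₁} A] [Abelian A] {B : Type u₂} [Category.{v₂} B] [Abelian B]
  {A' : Type u₃} [Category.{v₃} A'] [Abelian A'] {B' : Type u₄} [Category.{v₄} B'] [Abelian B']
  [HasExt.{t} A] [HasExt.{t'} A']
  {f : Geom.GM A B} {g : Geom.GM B' B} {f' : Geom.GM A' B'} {g' : Geom.GM A' A}

/-- Comparison maps from base change, for geometric morphisms. -/
theorem cmp_bijective_of_GM (α : g'.R ⋙ f.R ≅ f'.R ⋙ g.R) (F : A)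
    (h : Geom.BC α ((singleFunctor A 0).obj F)) [g.L.IsEquivalence] (N : B) {N' : A} {M : A'}
    (c : f.L.obj N ⟶ N') [IsIso c] (b : M ⟶ g'.L.obj N') [IsIso b] (n : ℕ) :
    Function.Bijective (cmp g'.L b F n) := by
  have h0 : g.L.mapDerivedCategory.IsEquivalence := Sga4h.GSq.isEquivalence_mapDer _
  have h1 := FromComp.mapExact_bijective_of_BC (Geom.cmpOf α) F h N
    (fun M => ⟨fun a b hab => g.L.mapDerivedCategory.map_injective hab,
      fun b => g.L.mapDerivedCategory.map_surjective b⟩) n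
  have h2 : Function.Bijective (cmp g'.L (𝟙 (g'.L.obj (f.L.obj N))) F n) := by
    have h3 : ⇑(cmp g'.L (𝟙 (g'.L.obj (f.L.obj N))) F n) = fun e => e.mapExactFunctor g'.L := by
      funext e
      rw [cmp_apply, Abelian.Ext.mk₀_id_comp]
    rw [h3]
    exact h1
  exact ⟨injective_change g'.L _ b (inv c) F n h2.1, surjective_change g'.L _ b (inv c) F n h2.2⟩

end abstract

variable (X : Scheme.{0}) [X.Over An.SC] [LocallyOfFiniteType (X ↘ An.SC)]

/-- **The comparison theorem from `Comp`.** -/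
theorem hcmp_bijective_of_comp (F : EtCoh.Ab X)
    (h : Comp (X ↘ An.SC) ((singleFunctor _ 0).obj F)) (q : ℕ) :
    Function.Bijective (An.Hcmp X F q) := by
  have h00 : (gEps An.SC).L.IsEquivalence := Pt.isEquivalence_epsPull
  have hc : IsIso (EtCore.pullConst (X ↘ An.SC) ℤ).hom := inferInstance
  have h1 := cmp_bijective_of_GM (f := gEt (X ↘ An.SC)) (g := gEps An.SC)
    (f' := gCl (An.Pts.mapC (X ↘ An.SC))) (g' := gEps X) (gam (X ↘ An.SC)) F h
    (EtCoh.const An.SC ℤ) (EtCore.pullConst (X ↘ An.SC) ℤ).hom (An.epsPullConst X ℤ).inv q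
  exact h1

end Groth.Agent.An.H895.FinalComp
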